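import Mathlib
import Cfsg.Agent.Lib.Helper41.CS3.GoodDefs
import Cfsg.Agent.Lib.Helper24.CS3.Basics
import Cfsg.Agent.Lib.Helper71.CS3.Basics

/-!
# CS3 (S4284), part GOOD: package [HY] (helper2)
-/

set_option autoImplicit false

namespace Cfsg.Agent.Lib.Helper2.CS3

open Cfsg.Agent.Lib.Helper81.CS3 Cfsg.Agent.Lib.Helper41.CS3

universe u

/-- `H ≤ K` of equal index in a finite group are equal -/
theorem eq_of_le_of_index_eq' {G : Type u} [Group G] [Finite G] {H K : Subgroup G} (hle : H ≤ K)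
    (hidx : H.index = K.index) : H = K := by
  apply le_antisymm hle
  have h1 := Subgroup.relIndex_mul_index hle
  rw [hidx] at h1
  have hK : K.index ≠ 0 := Subgroup.index_ne_zero_of_finite
  have h2 : H.relIndex K = 1 := by
    have h3 : H.relIndex K * K.index = 1 * K.index := by rw [h1, one_mul]
    exact Nat.eq_of_mul_eq_mul_right (Nat.pos_of_ne_zero hK) h3
  exact Subgroup.relIndex_eq_one.mp h2

/-- a conjugate of an abelian centralizer is abelian -/
theorem ab_conj {G : Type u} [Group G] (a g : G) (h : Ab (Cn a)) : Ab (Cn (g * a * g⁻¹)) := by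
  have key : ∀ x : G, x ∈ Cn (g * a * g⁻¹) → g⁻¹ * x * g ∈ Cn a := by
    intro x hx
    rw [Subgroup.mem_centralizer_singleton_iff] at hx ⊢
    calc g⁻¹ * x * g * a = g⁻¹ * (x * (g * a * g⁻¹)) * g := by group
      _ = g⁻¹ * (g * a * g⁻¹ * x) * g := by rw [hx]
      _ = a * (g⁻¹ * x * g) := by group
  intro x hx x' hx'
  have h1 := h _ (key x hx) _ (key x' hx')
  calc x * x' = g * ((g⁻¹ * x * g) * (g⁻¹ * x' * g)) * g⁻¹ := by group
    _ = g * ((g⁻¹ * x' * g) * (g⁻¹ * x * g)) * g⁻¹ := by rw [h1]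
    _ = x' * x := by group

/-- [HY] -/
theorem pkgHy_of (hNC : PkgNC.{u}) (hG4c : PkgG4c.{u}) (hSplit : PkgSplit.{u}) : PkgHy.{u} := by
  intro G _ _ m n hyp s s2 a y hs hsm hs2 hs2m hne hixa habA hprimy hixy
  have hm1 := hyp.2.1
  have hn1 := hyp.2.2.1
  have hmax : ∀ g : G, (Subgroup.centralizer ({g} : Set G)).index ≤ m * n :=
    fun g => Cfsg.Agent.Lib.Helper24.CS3.index_le hyp g
  have star : ∀ v w : G, ix v = m → w * v = v * w → ix w ≠ m * n := by
    intro v w hv hwv hw
    obtain ⟨g, hg⟩ := hG4c m n hyp a hixa habA v hv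
    have hab : Ab (Cn v) := by
      rw [hg]; exact ab_conj a g habA
    have hw' : w ∈ Cn v := Subgroup.mem_centralizer_singleton_iff.mpr hwv
    have hle : Cn v ≤ Cn w := by
      intro x hx
      rw [Subgroup.mem_centralizer_singleton_iff]
      exact hab x hx w hw'
    have hdvd : (Cn w).index ∣ (Cn v).index := Subgroup.index_dvd_of_le hle
    have h1 : (Cn w).index = m * n := hw
    have h2 : (Cn v).index = m := hv
    rw [h1, h2] at hdvd
    have := Nat.le_of_dvd (by omega) hdvd
    nlinarith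
  obtain ⟨u, hu, hprimu, hunc⟩ := hNC m n hyp s2 hs2 hs2m y
  obtain ⟨k, hk⟩ := hprimy
  obtain ⟨j, hj⟩ := hprimu
  have huy : u * y = y * u := Subgroup.mem_centralizer_singleton_iff.mp hu
  have hixu : ix u = m * n := by
    rcases Cfsg.Agent.Lib.Helper24.CS3.index_mem hyp u with h | h | h
    · exact absurd ((Cfsg.Agent.Lib.Helper71.CS3.idx_eq_one_iff u).mp h) hunc
    · exact absurd hixy (star u y h huy.symm)
    · exact h
  have hcop_yu : (orderOf y).Coprime (orderOf u) := by
    rw [hk, hj]; exact Nat.Coprime.pow _ _ ((Nat.coprime_primes hs hs2).mpr (Ne.symm hne))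
  have hCyu : Cn y ≤ Cn u :=
    Cfsg.Agent.Lib.Helper24.CS3.cent_le_of_max hmax y u hixy (show Commute y u from huy.symm)
      hcop_yu
  have hab : Ab (Cn y) := by
    intro g hg x hx
    obtain ⟨g1, g2, hg12, hp1, hco2, ⟨k1, hk1⟩, ⟨k2, hk2⟩⟩ := hSplit s hs g
    have hgy : g * y = y * g := Subgroup.mem_centralizer_singleton_iff.mp hg
    have hg2y : Commute y g2 := by
      rw [hk2]; exact Commute.pow_right (show Commute y g from hgy.symm) k2
    have hgu : Commute u g :=
      (show Commute g u from Subgroup.mem_centralizer_singleton_iff.mp (hCyu hg)).symm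
    have hg1u : Commute u g1 := by rw [hk1]; exact hgu.pow_right k1
    obtain ⟨k', hk'⟩ := hp1
    have h2 : Cn y ≤ Cn g2 :=
      Cfsg.Agent.Lib.Helper24.CS3.cent_le_of_max hmax y g2 hixy hg2y
        (by rw [hk]; exact Nat.Coprime.pow_left _ hco2.symm)
    have h1 : Cn u ≤ Cn g1 :=
      Cfsg.Agent.Lib.Helper24.CS3.cent_le_of_max hmax u g1 hixu hg1u
        (by rw [hj, hk']; exact Nat.Coprime.pow _ _ ((Nat.coprime_primes hs2 hs).mpr hne))
    have hx1 : x * g1 = g1 * x := Subgroup.mem_centralizer_singleton_iff.mp (h1 (hCyu hx))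
    have hx2 : x * g2 = g2 * x := Subgroup.mem_centralizer_singleton_iff.mp (h2 hx)
    rw [hg12]
    calc g1 * g2 * x = g1 * (x * g2) := by rw [mul_assoc, hx2]
      _ = (x * g1) * g2 := by rw [← mul_assoc, hx1]
      _ = x * (g1 * g2) := by rw [mul_assoc]
  refine ⟨hab, ?_⟩
  intro v hv hvnc
  have hle : Cn y ≤ Cn v := by
    intro x hx
    rw [Subgroup.mem_centralizer_singleton_iff]
    exact hab x hx v hv
  have hvy : v * y = y * v := Subgroup.mem_centralizer_singleton_iff.mp hv
  have hixv : ix v = m * n := by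
    rcases Cfsg.Agent.Lib.Helper24.CS3.index_mem hyp v with h | h | h
    · exact absurd ((Cfsg.Agent.Lib.Helper71.CS3.idx_eq_one_iff v).mp h) hvnc
    · exact absurd hixy (star v y h hvy.symm)
    · exact h
  exact (eq_of_le_of_index_eq' hle (hixy.trans hixv.symm)).symm

end Cfsg.Agent.Lib.Helper2.CS3
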