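import Mathlib
import Cfsg.Agent.Lib.Helper2.CS3.GoodHy

/-!
# CS3 (S4284), part GOOD: package [S5] (helper2)
-/

set_option autoImplicit false

namespace Cfsg.Agent.Lib.Helper2.CS3

open Cfsg.Agent.Lib.Helper81.CS3 Cfsg.Agent.Lib.Helper41.CS3

universe u

/-- the order of a conjugate -/
theorem orderOf_conj' {G : Type u} [Group G] (g u : G) : orderOf (g⁻¹ * u * g) = orderOf u := by
  have h : g⁻¹ * u * g = (MulAut.conj g⁻¹) u := by simp
  rw [h]
  exact orderOf_injective (MulAut.conj g⁻¹).toMonoidHom (MulAut.conj g⁻¹).injective u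

/-- [S5] -/
theorem pkgS5_of (hSylow : PkgSylow.{u}) (hPrim : PkgPrim.{u}) (hAt : PkgAt.{u}) : PkgS5.{u} := by
  intro G _ _ m n hyp s t a A T hgood hconf hS4 x
  have hm1 := hyp.2.1
  have hn1 := hyp.2.2.1
  have hcop := hyp.2.2.2.1
  have ht := hconf.tp
  obtain ⟨kt, hkt⟩ := hconf.tn
  have htn : t ∣ n := by
    rw [hkt]
    have : kt ≠ 0 := by
      rintro rfl
      rw [pow_zero] at hkt
      omega
    exact dvd_pow_self t this
  have htm : ¬ t ∣ m := by
    intro h
    have h1 : t = 1 := Nat.Coprime.eq_one_of_dvd (Nat.Coprime.coprime_dvd_left h hcop) htn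
    exact ht.one_lt.ne' h1
  have hTle : T ≤ Cn a := hconf.sup ▸ le_sup_right
  rcases hPrim t ht x with ⟨r, u, hr, hrt, hprimu, hunc, k, hk⟩ | ⟨xt, z, hx, hprimt, hz⟩
  · -- a non-central `r`-element power of `x`
    obtain ⟨j, hj⟩ := hprimu
    have hj0 : j ≠ 0 := by
      rintro rfl
      rw [pow_zero, orderOf_eq_one_iff] at hj
      exact hunc (hj ▸ Subgroup.one_mem _)
    have hrG : r ∣ Nat.card G := by
      have h1 : orderOf u ∣ Nat.card G := orderOf_dvd_natCard u
      rw [hj] at h1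
      exact (dvd_pow_self r hj0).trans h1
    have hrmn := Cfsg.Agent.Lib.Helper71.CS3.prime_dvd_mul hyp hr hrG
    have hrm : r ∣ m := by
      rcases (Nat.Prime.dvd_mul hr).mp hrmn with h | h
      · exact h
      · exfalso
        rw [hkt] at h
        exact hrt ((Nat.prime_dvd_prime_iff_eq hr ht).mp (hr.dvd_of_dvd_pow h))
    have hixu : ix u = m := by
      rcases Cfsg.Agent.Lib.Helper24.CS3.index_mem hyp u with h | h | h
      · exact absurd ((Cfsg.Agent.Lib.Helper71.CS3.idx_eq_one_iff u).mp h) hunc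
      · exact h
      · exact absurd h (hS4 r u hr hrm ⟨j, hj⟩)
    have hidx : ¬ t ∣ (Cn u).index := by
      have h1 : (Cn u).index = m := hixu
      rw [h1]; exact htm
    obtain ⟨g, hg⟩ := hSylow t ht T (Cn u) hconf.pT hidx
    -- `g⁻¹ u g` centralizes `T`
    have hcT : g⁻¹ * u * g ∈ Subgroup.centralizer (T : Set G) := by
      rw [Subgroup.mem_centralizer_iff]
      intro τ hτ
      have h1 := Subgroup.mem_centralizer_singleton_iff.mp (hg τ hτ)
      -- h1 : g * τ * g⁻¹ * u = u * (g * τ * g⁻¹)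
      calc τ * (g⁻¹ * u * g) = g⁻¹ * (g * τ * g⁻¹ * u) * g := by group
        _ = g⁻¹ * (u * (g * τ * g⁻¹)) * g := by rw [h1]
        _ = g⁻¹ * u * g * τ := by group
    have hua : g⁻¹ * u * g ∈ Cn a := hconf.cent hcT
    have hle : Cn a ≤ Cn (g⁻¹ * u * g) :=
      hAt n t a A T hconf r (g⁻¹ * u * g) hr hrt ⟨j, by rw [orderOf_conj', hj]⟩ hua
    have hnc' : g⁻¹ * u * g ∉ Subgroup.center G := by
      intro hc
      apply hunc
      have h1 : g * (g⁻¹ * u * g) = (g⁻¹ * u * g) * g := (Subgroup.mem_center_iff.mp hc g)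
      have h2 : u = g⁻¹ * u * g := by
        calc u = (g * (g⁻¹ * u * g)) * g⁻¹ := by group
          _ = ((g⁻¹ * u * g) * g) * g⁻¹ := by rw [h1]
          _ = g⁻¹ * u * g := by group
      rw [h2]; exact hc
    have hix' : ix (g⁻¹ * u * g) = m := by
      rcases Cfsg.Agent.Lib.Helper24.CS3.index_mem hyp (g⁻¹ * u * g) with h | h | h
      · exact absurd ((Cfsg.Agent.Lib.Helper71.CS3.idx_eq_one_iff _).mp h) hnc'
      · exact h
      · exfalso
        have hdvd : (Cn (g⁻¹ * u * g)).index ∣ (Cn a).index := Subgroup.index_dvd_of_le hle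
        have h1 : (Cn (g⁻¹ * u * g)).index = m * n := h
        have h2 : (Cn a).index = m := hgood.ixa
        rw [h1, h2] at hdvd
        have := Nat.le_of_dvd (by omega) hdvd
        nlinarith
    have heq : Cn a = Cn (g⁻¹ * u * g) :=
      eq_of_le_of_index_eq' hle (show (Cn a).index = (Cn (g⁻¹ * u * g)).index from
        hgood.ixa.trans hix'.symm)
    refine ⟨g, ?_⟩
    rw [heq, Subgroup.mem_centralizer_singleton_iff]
    have hxu : x * u = u * x := by
      rw [hk, ← pow_succ', ← pow_succ]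
    calc g⁻¹ * x * g * (g⁻¹ * u * g) = g⁻¹ * (x * u) * g := by group
      _ = g⁻¹ * (u * x) * g := by rw [hxu]
      _ = g⁻¹ * u * g * (g⁻¹ * x * g) := by group
  · -- `x = xt * z`
    obtain ⟨j, hj⟩ := hprimt
    have hpK : IsPGroup t (Subgroup.zpowers xt) :=
      IsPGroup.of_card (n := j) (by rw [Nat.card_zpowers]; exact hj)
    obtain ⟨g, hg⟩ := hSylow t ht (Subgroup.zpowers xt) T hpK hconf.sylT
    have h1 : g * xt * g⁻¹ ∈ Cn a := hTle (hg xt (Subgroup.mem_zpowers xt))
    have hzc : ∀ w : G, w * z = z * w := fun w => Subgroup.mem_center_iff.mp hz w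
    have h2 : z ∈ Cn a := Subgroup.mem_centralizer_singleton_iff.mpr (hzc a).symm
    refine ⟨g⁻¹, ?_⟩
    have h3 : g⁻¹⁻¹ * x * g⁻¹ = (g * xt * g⁻¹) * z := by
      rw [hx, inv_inv]
      calc g * (xt * z) * g⁻¹ = g * xt * (z * g⁻¹) := by group
        _ = g * xt * (g⁻¹ * z) := by rw [hzc g⁻¹]
        _ = g * xt * g⁻¹ * z := by group
    rw [h3]
    exact Subgroup.mul_mem _ h1 h2

end Cfsg.Agent.Lib.Helper2.CS3
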